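import Mathlib
import Cfsg.Agent.Lib.SL2Borel.Inner
import Cfsg.Agent.Lib.Chars.Kernel
import Cfsg.Agent.Lib.Linear.GL2Unipotent

/-!
# The splitting principal series of `SL₂`
-/

set_option autoImplicit false

namespace CfsgLib.SL2Borel

open Matrix CfsgLib.Chars Cfsg
open CfsgLib.Linear.GL2Unipotent (V v card_V)
open scoped ComplexConjugate

universe u

variable {F : Type u} [Field F]

local notation "L" => Matrix.SpecialLinearGroup (Fin 2) F
local notation "M2" => Matrix (Fin 2) (Fin 2) F

/-- Conjugation by `diag(ν⁻¹, 1)`, inverse. -/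
def diagAut (ν : Fˣ) : L →* L where
  toFun h := ⟨!![(h : M2) 0 0, (ν : F) * (h : M2) 0 1; (ν : F)⁻¹ * (h : M2) 1 0, (h : M2) 1 1], by
    have := det_eq h
    rw [Matrix.det_fin_two]
    simp only [Matrix.of_apply, Matrix.cons_val', Matrix.cons_val_zero, Matrix.cons_val_one, Matrix.cons_val_fin_one]
    field_simp
    linear_combination this⟩
  map_one' := Subtype.ext (by ext i j; fin_cases i <;> fin_cases j <;> simp)
  map_mul' a b := Subtype.ext (by
    show _ = (!![(a : M2) 0 0, (ν : F) * (a : M2) 0 1; (ν : F)⁻¹ * (a : M2) 1 0, (a : M2) 1 1] : M2) *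
      !![(b : M2) 0 0, (ν : F) * (b : M2) 0 1; (ν : F)⁻¹ * (b : M2) 1 0, (b : M2) 1 1]
    ext i j
    fin_cases i <;> fin_cases j <;>
      simp [Matrix.SpecialLinearGroup.coe_mul, Matrix.mul_apply, Fin.sum_univ_two] <;> field_simp)

theorem diagAut_apply (ν : Fˣ) (h : L) : ((diagAut ν h : L) : M2) =
    !![(h : M2) 0 0, (ν : F) * (h : M2) 0 1; (ν : F)⁻¹ * (h : M2) 1 0, (h : M2) 1 1] := rfl

theorem diagAut_surjective (ν : Fˣ) : Function.Surjective (diagAut (F := F) ν) := fun g => by
  refine ⟨diagAut ν⁻¹ g, Subtype.ext ?_⟩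
  ext i j
  fin_cases i <;> fin_cases j <;> simp [diagAut_apply]

variable [Fintype F] [DecidableEq F]

theorem principal_diagAut (α : MulChar F ℂ) (ν : Fˣ) (g : L) :
    indFun (B F) (fun b => α (((b : L) : M2) 0 0)) (diagAut ν g) =
      indFun (B F) (fun b => α (((b : L) : M2) 0 0)) g := by
  rw [indFun_eq, indFun_eq]
  congr 1
  · simp [diagAut_apply]
  · refine (Fintype.sum_equiv (Equiv.mulLeft₀ (ν : F) ν.ne_zero) _ _ fun x => ?_).symm
    show _ = if ((diagAut ν g : L) : M2) 1 0 * ((ν : F) * x) * ((ν : F) * x) +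
        (((diagAut ν g : L) : M2) 1 1 - ((diagAut ν g : L) : M2) 0 0) * ((ν : F) * x) -
        ((diagAut ν g : L) : M2) 0 1 = 0 then
          α (((diagAut ν g : L) : M2) 1 0 * ((ν : F) * x) + ((diagAut ν g : L) : M2) 1 1) else 0
    simp only [diagAut_apply, Matrix.of_apply, Matrix.cons_val', Matrix.cons_val_zero,
      Matrix.cons_val_one, Matrix.cons_val_fin_one]
    have e1 : (ν : F)⁻¹ * (g : M2) 1 0 * ((ν : F) * x) = (g : M2) 1 0 * x := by field_simp
    have e2 : (g : M2) 1 0 * x * ((ν : F) * x) + ((g : M2) 1 1 - (g : M2) 0 0) * ((ν : F) * x) -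
        (ν : F) * (g : M2) 0 1 = (ν : F) * ((g : M2) 1 0 * x * x + ((g : M2) 1 1 - (g : M2) 0 0) * x - (g : M2) 0 1) := by
      ring
    rw [e1, e2]
    simp only [mul_eq_zero, ν.ne_zero, false_or]

theorem split (hodd : Odd (Fintype.card F)) (α : MulChar F ℂ) (hα : α ^ 2 = 1) (hα1 : α ≠ 1) :
    ∃ χ₁ χ₂ : L → ℂ, IsIrrCharacter L χ₁ ∧ IsIrrCharacter L χ₂ ∧ χ₁ ≠ χ₂ ∧
      indFun (B F) (fun b => α (((b : L) : M2) 0 0)) = χ₁ + χ₂ ∧
      χ₁ 1 = (((Fintype.card F + 1) / 2 : ℕ) : ℂ) ∧ χ₂ 1 = (((Fintype.card F + 1) / 2 : ℕ) : ℂ) ∧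
      ∃ x : Matrix.GeneralLinearGroup (Fin 2) F, ∀ g h : L,
        Matrix.SpecialLinearGroup.toGL h = x * Matrix.SpecialLinearGroup.toGL g * x⁻¹ → χ₂ h = χ₁ g := by
  classical
  haveI : Fintype (B F) := Fintype.ofFinite _
  haveI : Fintype (V (F := F)) := Fintype.ofFinite _
  set Θ := indFun (B F) (fun b => α (((b : L) : M2) 0 0)) with hΘ
  have hchar : IsCharacter L Θ := isCharacter_principal α
  have hinv : α = α⁻¹ := by
    rw [← mul_eq_one_iff_eq_inv, ← pow_two, hα]
  have hnorm : classInner Θ Θ = 2 := by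
    rw [hΘ, inner_eq α α, if_pos rfl, if_pos hinv]; norm_num
  choose m hm using exists_mult hchar
  have hexp : ∀ x, Θ x = ∑ χ : IrrCharacter L, (m χ : ℂ) * (χ : L → ℂ) x := fun x => by
    rw [classFunction_expand (IsCharacter.isClassFunction hchar) x]; simp only [hm]
  have hsq : ∑ χ : IrrCharacter L, m χ * m χ = 2 := by
    have h1 : classInner Θ Θ = ∑ χ : IrrCharacter L, (m χ : ℂ) * classInner (χ : L → ℂ) Θ := by
      conv_lhs => arg 1; rw [funext hexp]
      exact classInner_sum _ _ _ _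
    have h2 : ∀ χ : IrrCharacter L, classInner (χ : L → ℂ) Θ = (m χ : ℂ) := fun χ => by
      rw [classInner_symm, hm, map_natCast]
    simp only [h2, hnorm] at h1
    exact_mod_cast h1.symm
  have hle : ∀ χ, m χ ≤ 1 := fun χ => by
    by_contra hc
    have h4 : 2 * 2 ≤ m χ * m χ := Nat.mul_le_mul (by omega) (by omega)
    have := Finset.single_le_sum (f := fun χ => m χ * m χ) (fun i _ => Nat.zero_le _) (Finset.mem_univ χ)
    omega
  set S := Finset.univ.filter fun χ : IrrCharacter L => m χ ≠ 0 with hS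
  have hS2 : S.card = 2 := by
    refine Eq.trans ?_ hsq
    rw [hS, Finset.card_filter]
    refine Finset.sum_congr rfl fun χ _ => ?_
    have := hle χ
    interval_cases hmx : m χ <;> simp
  obtain ⟨a, b, hab, hSab⟩ := Finset.card_eq_two.1 hS2
  have hΘab : ∀ x, Θ x = (a : L → ℂ) x + (b : L → ℂ) x := by
    intro x
    rw [hexp x, ← Finset.sum_subset (Finset.subset_univ S) (fun χ _ hχ => by
      have : m χ = 0 := by simpa [S] using hχ
      simp [this]), hSab, Finset.sum_pair hab]
    have ha : m a = 1 := by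
      have h : a ∈ S := by rw [hSab]; simp
      have := hle a; simp [S] at h; omega
    have hb : m b = 1 := by
      have h : b ∈ S := by rw [hSab]; simp
      have := hle b; simp [S] at h; omega
    simp [ha, hb]
  have hmem : ∀ χ : IrrCharacter L, classInner Θ (χ : L → ℂ) ≠ 0 → χ = a ∨ χ = b := by
    intro χ hχ
    have : χ ∈ S := by simp [S, ← Nat.cast_ne_zero (R := ℂ), ← hm, hχ]
    rw [hSab] at this
    simpa using this
  have hnotriv : ∀ χ : IrrCharacter L, (χ = a ∨ χ = b) → (χ : L → ℂ) ≠ fun _ => 1 := by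
    intro χ hχ h1
    have hm0 : classInner Θ (χ : L → ℂ) ≠ 0 := by
      rw [hm]
      have : χ ∈ S := by rw [hSab]; simpa using hχ
      simpa [S] using this
    apply hm0
    rw [h1, hΘ, CfsgLib.Chars.frobenius _ _ (fun g h => rfl), classInner]
    set e := Equiv.ofBijective _ (belt_bijective (F := F)) with he
    rw [← Fintype.sum_equiv e (fun p : Fˣ × F => α (p.1 : F)) _ (fun p => by
      show α (p.1 : F) = α _ * conj 1
      rw [map_one, mul_one]; rfl), Fintype.sum_prod_type]
    simp only [Finset.sum_const, nsmul_eq_mul]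
    rw [← Finset.mul_sum, sum_units_mulChar, if_neg hα1, mul_zero, mul_zero]
  have hchar2 : ringChar F ≠ 2 := by
    intro h
    have := FiniteField.even_card_iff_char_two.mp h
    rw [Nat.odd_iff] at hodd
    omega
  obtain ⟨ν₀, hν₀⟩ := FiniteField.exists_nonsquare hchar2
  have hν0 : ν₀ ≠ 0 := fun h => hν₀ (h ▸ IsSquare.zero)
  let ν : Fˣ := Units.mk0 ν₀ hν0
  let a' : IrrCharacter L := ⟨fun g => (a : L → ℂ) (diagAut ν g), IsIrrCharacter.comp a.2 _ (diagAut_surjective ν)⟩
  let b' : IrrCharacter L := ⟨fun g => (b : L → ℂ) (diagAut ν g), IsIrrCharacter.comp b.2 _ (diagAut_surjective ν)⟩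
  have hsum' : ∀ g, (a' : L → ℂ) g + (b' : L → ℂ) g = Θ g := fun g => by
    show (a : L → ℂ) (diagAut ν g) + (b : L → ℂ) (diagAut ν g) = Θ g
    rw [← hΘab, hΘ, principal_diagAut]
  have hab' : a' ≠ b' := fun h => hab (Subtype.ext (funext fun g => by
    obtain ⟨g, rfl⟩ := diagAut_surjective ν g
    exact congrFun (congrArg Subtype.val h) g))
  have ha' : a' = a ∨ a' = b := by
    refine hmem a' ?_
    have h : Θ = fun g => (a' : L → ℂ) g + (b' : L → ℂ) g := funext fun g => (hsum' g).symm
    have h2 : classInner Θ (a' : L → ℂ) = classInner (a' : L → ℂ) (a' : L → ℂ) + classInner (b' : L → ℂ) (a' : L → ℂ) := by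
      rw [h]; simp only [classInner, add_mul, Finset.sum_add_distrib, mul_add]
    rw [h2, classInner_irr, classInner_irr, if_pos rfl, if_neg hab'.symm, add_zero]
    exact one_ne_zero
  have hv : ∀ x y : F, v x * v y = v (x + y) := fun x y => Subtype.ext (by
    rw [Matrix.SpecialLinearGroup.coe_mul]; simp)
  have hsq : ∀ c : F, c ≠ 0 → IsSquare c ∨ IsSquare (c * ν₀) := by
    intro c hc
    by_contra hcon
    push Not at hcon
    have h1 := (quadraticChar_neg_one_iff_not_isSquare).2 hcon.1
    have h2 := (quadraticChar_neg_one_iff_not_isSquare).2 hcon.2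
    have h3 := (quadraticChar_neg_one_iff_not_isSquare).2 hν₀
    rw [map_mul, h1, h3] at h2
    norm_num at h2
  have hne : a' ≠ a := by
    intro heq
    have hfix : ∀ g, (a : L → ℂ) (diagAut ν g) = (a : L → ℂ) g := fun g => congrFun (congrArg Subtype.val heq) g
    have hfixb : ∀ g, (b : L → ℂ) (diagAut ν g) = (b : L → ℂ) g := fun g => by
      have h1 := hsum' g
      rw [hΘab, heq] at h1
      exact add_left_cancel h1
    have hconst : ∀ χ : IrrCharacter L, (∀ g, (χ : L → ℂ) (diagAut ν g) = (χ : L → ℂ) g) →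
        ∀ c : F, c ≠ 0 → (χ : L → ℂ) (v c) = (χ : L → ℂ) (v 1) := by
      intro χ hχ
      have hmv : ∀ c : F, (χ : L → ℂ) (v c) = (χ : L → ℂ) (v (c * ν₀⁻¹)) := fun c => by
        rw [← hχ (v c)]
        refine congrArg _ (Subtype.ext ?_)
        rw [diagAut_apply]
        ext i j
        fin_cases i <;> fin_cases j <;> simp [ν, mul_comm]
      have hsquare : ∀ c : F, c ≠ 0 → IsSquare c → (χ : L → ℂ) (v c) = (χ : L → ℂ) (v 1) := by
        rintro c hc ⟨t, rfl⟩
        have ht : t ≠ 0 := fun h => hc (by rw [h, mul_zero])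
        have h := IsCharacter.isClassFunction (isCharacter_irr χ) (v 1)
          ((belt (Units.mk0 t ht)⁻¹ 0 : B F) : L)
        rw [← h]
        refine congrArg _ ?_
        rw [eq_mul_inv_iff_mul_eq]
        refine Subtype.ext ?_
        simp only [Matrix.SpecialLinearGroup.coe_mul, belt_coe]
        ext i j
        fin_cases i <;> fin_cases j <;> simp [Matrix.mul_apply, Fin.sum_univ_two]
      intro c hc
      rcases hsq c hc with h | h
      · exact hsquare c hc h
      · have h2 := hmv (c * ν₀)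
        rw [mul_inv_cancel_right₀ hν0] at h2
        rw [← h2]
        exact hsquare _ (mul_ne_zero hc hν0) h
    have hval : ∀ c : F, c ≠ 0 → Θ (v c) = 1 := by
      intro c hc
      rw [hΘ, indFun_eq]
      simp [hc, Finset.sum_ite_eq']
    have hint : ∀ χ : IrrCharacter L, (∀ g, (χ : L → ℂ) (diagAut ν g) = (χ : L → ℂ) g) →
        ∃ z : ℤ, (χ : L → ℂ) (v 1) = (z : ℂ) ∧ z ≤ charDegree (χ : L → ℂ) ∧
          (Fintype.card F : ℤ) ∣ (charDegree (χ : L → ℂ) : ℤ) - z := by
      intro χ hχ
      set c := (χ : L → ℂ) (v 1) with hc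
      set d := charDegree (χ : L → ℂ) with hd
      obtain ⟨n, hn⟩ := exists_mult (IsCharacter.restrict (isCharacter_irr χ) (V (F := F)))
        (⟨fun _ => 1, isIrrCharacter_one _⟩ : IrrCharacter (V (F := F)))
      let eV : F ≃ V (F := F) := Equiv.ofBijective (fun x => ⟨v x, ⟨x, rfl⟩⟩)
        ⟨fun x y h => CfsgLib.Linear.GL2Unipotent.v_injective (congrArg Subtype.val h),
          fun y => by obtain ⟨x, hx⟩ := y.2; exact ⟨x, Subtype.ext hx⟩⟩
      have hsumV : ∑ y : V (F := F), (χ : L → ℂ) y = (d : ℂ) + ((Fintype.card F : ℂ) - 1) * c := by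
        rw [← Fintype.sum_equiv eV (fun x => (χ : L → ℂ) (v x)) _ (fun x => rfl),
          ← Finset.add_sum_erase _ _ (Finset.mem_univ (0 : F)),
          show v (0 : F) = 1 from Subtype.ext (by simp [Matrix.one_fin_two]), irr_apply_one,
          Finset.sum_congr rfl (fun x hx => hconst χ hχ x (Finset.ne_of_mem_erase hx)),
          Finset.sum_const, nsmul_eq_mul, Finset.card_erase_of_mem (Finset.mem_univ _), Finset.card_univ,
          Nat.cast_sub (Fintype.card_pos (α := F)), Nat.cast_one]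
      have hq : (Fintype.card F : ℂ) ≠ 0 := Nat.cast_ne_zero.2 Fintype.card_ne_zero
      have hq1 : ((Fintype.card F : ℂ) - 1) ≠ 0 := by
        rw [sub_ne_zero]; exact_mod_cast (Fintype.one_lt_card (α := F)).ne'
      have hn' : (d : ℂ) + ((Fintype.card F : ℂ) - 1) * c = (Fintype.card F : ℂ) * n := by
        rw [← hn, classInner]
        simp only [map_one, mul_one]
        rw [card_V, Nat.card_eq_fintype_card, hsumV, ← mul_assoc, mul_inv_cancel₀ hq, one_mul]
      have hrat : c = algebraMap ℚ ℂ (((Fintype.card F : ℚ) * n - d) / ((Fintype.card F : ℚ) - 1)) := by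
        simp only [map_div₀, map_sub, map_mul, map_natCast, map_one]
        rw [eq_div_iff hq1]
        linear_combination hn'
      have hI : IsIntegral ℤ c := IsCharacter.isIntegral (isCharacter_irr χ) _
      rw [hrat, isIntegral_algebraMap_iff (algebraMap ℚ ℂ).injective] at hI
      obtain ⟨z, hz⟩ := IsIntegrallyClosed.isIntegral_iff.mp hI
      have hcz : c = (z : ℂ) := by rw [hrat, ← hz]; simp
      refine ⟨z, hcz, ?_, ?_⟩
      · have h := IsCharacter.norm_le (isCharacter_irr χ) (v (1 : F))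
        rw [← hc, hcz, irr_apply_one, Complex.norm_intCast, Complex.natCast_re] at h
        have h2 : (z : ℝ) ≤ (d : ℝ) := le_trans (le_abs_self _) h
        exact_mod_cast h2
      · rw [hcz] at hn'
        have h3 : (d : ℤ) + ((Fintype.card F : ℤ) - 1) * z = (Fintype.card F : ℤ) * n := by exact_mod_cast hn'
        exact ⟨n - z, by linear_combination h3⟩
    obtain ⟨za, hza, hla, hda⟩ := hint a hfix
    obtain ⟨zb, hzb, hlb, hdb⟩ := hint b hfixb
    have htot1 := hΘab 1
    rw [hΘ, indFun_one, irr_apply_one, irr_apply_one] at htot1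
    have htot2 := hΘab (v 1)
    rw [hval 1 one_ne_zero, hza, hzb] at htot2
    have hidx : ((B F).index : ℤ) = (Fintype.card F : ℤ) + 1 := by
      have h1 := Fintype.card_congr (Equiv.ofBijective _ (rep_bijective (F := F)))
      rw [Fintype.card_prod, Fintype.card_option, ← Nat.card_eq_fintype_card (α := L), ← (B F).index_mul_card,
        Nat.card_eq_fintype_card (α := B F)] at h1
      exact_mod_cast (Nat.eq_of_mul_eq_mul_right Fintype.card_pos h1).symm
    simp only [OneMemClass.coe_one, Matrix.SpecialLinearGroup.coe_one, Matrix.one_apply_eq, map_one, mul_one] at htot1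
    have e1 : ((B F).index : ℤ) = (charDegree (a : L → ℂ) : ℤ) + charDegree (b : L → ℂ) := by exact_mod_cast htot1
    have e2 : (1 : ℤ) = za + zb := by exact_mod_cast htot2
    have hz0 : (za = charDegree (a : L → ℂ)) ∨ (zb = charDegree (b : L → ℂ)) := by
      by_contra hcon
      push Not at hcon
      have p1 := Int.le_of_dvd (by omega) hda
      have p2 := Int.le_of_dvd (by omega) hdb
      have := Fintype.one_lt_card (α := F)
      omega
    have hker : ∀ χ : IrrCharacter L, (∀ g, (χ : L → ℂ) (diagAut ν g) = (χ : L → ℂ) g) →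
        (χ : L → ℂ) (v 1) = (charDegree (χ : L → ℂ) : ℂ) → (χ : L → ℂ) = fun _ => 1 := by
      intro χ hχ h1
      obtain ⟨K, hKn, hK, hKmul⟩ := IsCharacter.exists_kernel (isCharacter_irr χ)
      have hVK : (V (F := F)) ≤ K := by
        rintro y ⟨x, rfl⟩
        rw [hK]
        rcases eq_or_ne x 0 with rfl | hx
        · rw [show v (0 : F) = 1 from Subtype.ext (by simp [Matrix.one_fin_two])]
        · rw [hconst χ hχ x hx, h1, irr_apply_one]
      let k : L := ⟨!![0, 1; -1, 0], by simp [Matrix.det_fin_two]⟩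
      have htop : K = ⊤ := top_le_iff.1 (by
        rw [← CfsgLib.Linear.GL2Unipotent.sup_eq_top k (by simp [k])]
        refine sup_le hVK ?_
        rintro _ ⟨y, hy, rfl⟩
        exact hKn.conj_mem y (hVK hy) k)
      have hcst : ∀ g, (χ : L → ℂ) g = (χ : L → ℂ) 1 := fun g => (hK g).1 (htop ▸ Subgroup.mem_top g)
      funext g
      have h2 := classInner_irr χ χ
      rw [if_pos rfl, classInner] at h2
      simp only [hcst, conj_irr_one, Finset.sum_const, nsmul_eq_mul, Finset.card_univ, ← Nat.card_eq_fintype_card] at h2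
      rw [← mul_assoc, inv_mul_cancel₀ (natCast_card_ne_zero L), one_mul, irr_apply_one, ← Nat.cast_mul,
        Nat.cast_eq_one] at h2
      rw [hcst, irr_apply_one, Nat.eq_one_of_mul_eq_one_right h2, Nat.cast_one]
    rcases hz0 with h | h
    · exact hnotriv a (Or.inl rfl) (hker a hfix (by rw [hza, h]; simp))
    · exact hnotriv b (Or.inr rfl) (hker b hfixb (by rw [hzb, h]; simp))
  have hb : a' = b := ha'.resolve_left hne
  have hbg : ∀ g, (b : L → ℂ) g = (a : L → ℂ) (diagAut ν g) := fun g => by rw [← hb]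
  have hdeg : (b : L → ℂ) 1 = (a : L → ℂ) 1 := by rw [hbg 1, map_one]
  have htwo : (a : L → ℂ) 1 = (((Fintype.card F + 1) / 2 : ℕ) : ℂ) := by
    have h1 := hΘab 1
    rw [hdeg, hΘ, indFun_eq, irr_apply_one] at h1
    simp at h1
    have h2 : Fintype.card F + 1 = charDegree (a : L → ℂ) + charDegree (a : L → ℂ) := by
      have : ((Fintype.card F + 1 : ℕ) : ℂ) = ((charDegree (a : L → ℂ) + charDegree (a : L → ℂ) : ℕ) : ℂ) := by
        push_cast; rw [← h1]; ring
      exact_mod_cast this
    rw [irr_apply_one]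
    congr 1
    omega
  refine ⟨(a : L → ℂ), (b : L → ℂ), a.2, b.2, fun h => hab (Subtype.ext h), funext hΘab, htwo, hdeg.trans htwo,
    Matrix.GeneralLinearGroup.mkOfDetNeZero !![ν₀⁻¹, 0; 0, 1] (by simp [Matrix.det_fin_two, hν0]), fun g h hh => ?_⟩
  rw [hbg h]
  refine congrArg _ (Subtype.ext ?_)
  rw [eq_mul_inv_iff_mul_eq] at hh
  have hh' := congrArg (fun y : GL (Fin 2) F => (y : M2)) hh
  simp only [Units.val_mul, Matrix.GeneralLinearGroup.mkOfDetNeZero, Matrix.SpecialLinearGroup.toGL] at hh'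
  rw [diagAut_apply]
  ext i j
  have := congrFun (congrFun hh' i) j
  fin_cases i <;> fin_cases j <;> simp [Matrix.mul_apply, Fin.sum_univ_two, ν] at this ⊢ <;>
    (try field_simp at this ⊢) <;> first | exact this | exact this.symm | linear_combination this | linear_combination -this

end CfsgLib.SL2Borel
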