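import Mathlib
import Cfsg.Agent.Lib.SL2Borel.Degrees
import Cfsg.Agent.Lib.SL2Borel.Split

/-!
# Degree counts for `SL₂` in odd characteristic
-/

set_option autoImplicit false

namespace CfsgLib.SL2Borel

open Matrix CfsgLib.Chars Cfsg
open CfsgLib.GL2Borel (lam wt)
open scoped ComplexConjugate

universe u

variable {F : Type u} [Field F] [Fintype F] [DecidableEq F]

local notation "G2" => Matrix.GeneralLinearGroup (Fin 2) F
local notation "L" => Matrix.SpecialLinearGroup (Fin 2) F
local notation "M2" => Matrix (Fin 2) (Fin 2) F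
local notation "Θ" γ:max => indFun (B F) (fun b => (γ : MulChar F ℂ) (((b : L) : M2) 0 0))

theorem principal_res_gen (α β : MulChar F ℂ) (g : L) :
    indFun (Cfsg.upperTriangularGL 2 F) (wt α β) (Matrix.SpecialLinearGroup.toGL g : G2) = (Θ (α * β⁻¹)) g := by
  have hd := det_eq g
  rw [CfsgLib.GL2Borel.indFun_eq, indFun_eq, toGL_coe]
  have hone : ∀ x y : F, x * y = 1 → α x * β y = (α * β⁻¹) x := fun x y h => by
    rw [MulChar.mul_apply, MulChar.inv_apply', eq_inv_of_mul_eq_one_right h]
  congr 1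
  · split_ifs with h10
    · rw [h10, mul_zero, sub_zero] at hd
      exact hone _ _ hd
    · rfl
  · refine Finset.sum_congr rfl fun x _ => ?_
    split_ifs with hx
    · refine hone _ _ ?_
      linear_combination hd - (g : M2) 1 0 * hx
    · rfl

theorem principal_deg (γ : MulChar F ℂ) : (Θ γ) 1 = (Fintype.card F : ℂ) + 1 := by
  rw [indFun_eq]
  simp [add_comm]

theorem pair_mem {a b c d : IrrCharacter L} (h : ∀ g, (a : L → ℂ) g + (b : L → ℂ) g = (c : L → ℂ) g + (d : L → ℂ) g) :
    a = c ∨ a = d := by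
  classical
  by_contra hc
  push Not at hc
  have h1 : classInner (fun g => (a : L → ℂ) g + (b : L → ℂ) g) (a : L → ℂ) =
      classInner (fun g => (c : L → ℂ) g + (d : L → ℂ) g) (a : L → ℂ) := by rw [funext h]
  simp only [classInner, add_mul, Finset.sum_add_distrib, mul_add] at h1
  rw [← classInner, ← classInner, ← classInner, ← classInner, classInner_irr, classInner_irr, classInner_irr,
    classInner_irr, if_pos rfl, if_neg hc.1.symm, if_neg hc.2.symm] at h1
  split_ifs at h1 <;> norm_num at h1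

theorem quad_unique {α β : MulChar F ℂ} (hα : α ^ 2 = 1) (hα1 : α ≠ 1) (hβ : β ^ 2 = 1) (hβ1 : β ≠ 1) : α = β := by
  classical
  letI := Fintype.ofFinite (MulChar F ℂ)
  haveI : IsCyclic (MulChar F ℂ) := by
    obtain ⟨e⟩ := MulChar.mulEquiv_units F ℂ
    exact isCyclic_of_surjective e.symm.toMonoidHom e.symm.surjective
  by_contra hne
  have h := IsCyclic.card_pow_eq_one_le (α := MulChar F ℂ) (n := 2) (by norm_num)
  have h3 : ({1, α, β} : Finset (MulChar F ℂ)).card = 3 := Finset.card_eq_three.2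
    ⟨1, α, β, hα1.symm, hβ1.symm, hne, rfl⟩
  have := (Finset.card_le_card (s := ({1, α, β} : Finset (MulChar F ℂ)))
    (t := Finset.univ.filter fun x => x ^ 2 = 1) (fun x hx => by
      simp only [Finset.mem_insert, Finset.mem_singleton] at hx
      rcases hx with rfl | rfl | rfl <;> simp [hα, hβ])).trans h
  omega

theorem exists_quad (hodd : Odd (Fintype.card F)) : ∃ α : MulChar F ℂ, α ^ 2 = 1 ∧ α ≠ 1 := by
  letI := Fintype.ofFinite (MulChar F ℂ)
  have h2 : 2 ∣ Fintype.card (MulChar F ℂ) := by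
    rw [← Nat.card_eq_fintype_card, MulChar.card_eq_card_units_of_hasEnoughRootsOfUnity, Nat.card_units,
      Nat.card_eq_fintype_card]
    obtain ⟨k, hk⟩ := hodd
    omega
  obtain ⟨α, hα⟩ := exists_prime_orderOf_dvd_card 2 h2
  exact ⟨α, by rw [← hα, pow_orderOf_eq_one], fun h => by rw [h, orderOf_one] at hα; omega⟩

theorem principal_irr {γ : MulChar F ℂ} (h : γ ^ 2 ≠ 1) : IsIrrCharacter L (Θ γ) := by
  classical
  refine isIrrCharacter_of_norm_one (isCharacter_principal γ) ?_
  rw [inner_eq, if_pos rfl, if_neg, add_zero]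
  exact fun e => h (by rw [pow_two]; exact mul_eq_one_iff_eq_inv.2 e)

/-- The characters of degree `q + 1`. -/
theorem deg_succ (hq : 5 ≤ Fintype.card F) (ψ : IrrCharacter L)
    (h : charDegree (ψ : L → ℂ) = Fintype.card F + 1) :
    ∃ γ : MulChar F ℂ, γ ^ 2 ≠ 1 ∧ (ψ : L → ℂ) = Θ γ := by
  classical
  obtain ⟨X, Y, hY12, hd, -, hval, hcases, -⟩ := over_degree ψ
  rw [h] at hd
  have hY1 : Y.card = 1 := by
    rcases hY12 with c | c
    · exact c
    · rw [c] at hd; omega
  rw [hY1, one_mul] at hd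
  obtain ⟨α, β, hab⟩ := CfsgLib.GL2Borel.of_degree_succ X (by rw [irr_apply_one, hd, Nat.cast_add, Nat.cast_one])
  have e : (ψ : L → ℂ) = Θ (α * β⁻¹) := funext fun g => by rw [hval hY1 g, hab, principal_res_gen]
  refine ⟨α * β⁻¹, fun hsq => ?_, e⟩
  have h1 := classInner_irr ψ ψ
  rw [if_pos rfl, e, inner_eq, if_pos rfl, if_pos (mul_eq_one_iff_eq_inv.1 (by rw [← pow_two, hsq]))] at h1
  norm_num at h1

/-- The characters of degree `(q + 1) / 2`. -/
theorem deg_half (hodd : Odd (Fintype.card F)) (hq : 5 ≤ Fintype.card F) :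
    Nat.card {ψ : IrrCharacter L // charDegree (ψ : L → ℂ) = (Fintype.card F + 1) / 2} = 2 := by
  classical
  haveI : Finite (IrrCharacter L) := finite_irr L
  obtain ⟨γ, hγ, hγ1⟩ := exists_quad hodd
  obtain ⟨c₁, c₂, h₁, h₂, hne, hsum, hd₁, hd₂, -⟩ := split hodd γ hγ hγ1
  let a : IrrCharacter L := ⟨c₁, h₁⟩
  let b : IrrCharacter L := ⟨c₂, h₂⟩
  have hdeg : ∀ (χ : IrrCharacter L) (k : ℕ), (χ : L → ℂ) 1 = (k : ℂ) → charDegree (χ : L → ℂ) = k := fun χ k e => by
    rw [irr_apply_one] at e
    exact_mod_cast e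
  have hmem : ∀ ψ : IrrCharacter L, charDegree (ψ : L → ℂ) = (Fintype.card F + 1) / 2 → ψ = a ∨ ψ = b := by
    intro ψ h
    obtain ⟨X, Y, hY12, -, hd, hn, hY⟩ := exists_over ψ
    have hcases := (CfsgLib.GL2Borel.degrees (F := F)).1 X
    rw [h] at hd
    obtain ⟨k, hk⟩ := hodd
    have hY2 : Y.card = 2 := by
      rcases hY12 with c | c
      · rw [c] at hd; rcases hcases with e | e | e | e <;> omega
      · exact c
    rw [hY2] at hd hn
    have hX : charDegree (X : G2 → ℂ) = Fintype.card F + 1 := by omega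
    obtain ⟨α, β, hab⟩ := CfsgLib.GL2Borel.of_degree_succ X (by rw [irr_apply_one, hX, Nat.cast_add, Nat.cast_one])
    have hαβ : α ≠ β := by
      intro e
      have h1 := classInner_irr X X
      rw [if_pos rfl, funext hab, CfsgLib.GL2Borel.inner_eq, e] at h1
      simp at h1
    have hres : ∀ g : L, (X : G2 → ℂ) (Matrix.SpecialLinearGroup.toGL g) = (Θ (α * β⁻¹)) g := fun g => by
      rw [hab, principal_res_gen]
    have hsq : (α * β⁻¹) ^ 2 = 1 := by
      by_contra hsq
      rw [funext hres, inner_eq, if_pos rfl, if_neg (fun e => hsq (by rw [pow_two]; exact mul_eq_one_iff_eq_inv.2 e))] at hn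
      norm_num at hn
    have hγeq : α * β⁻¹ = γ := quad_unique hsq (fun e => hαβ (mul_inv_eq_one.1 e)) hγ hγ1
    obtain ⟨y, y', hyy, hYeq⟩ := Finset.card_eq_two.1 hY2
    have htot : ∀ g : L, (ψ : L → ℂ) (cg y g) + (ψ : L → ℂ) (cg y' g) = c₁ g + c₂ g := fun g => by
      have h1 := hY g
      rw [hres, hγeq, hYeq, Finset.sum_pair hyy, hsum] at h1
      exact h1.symm
    have hinv : ∀ (z : G2) (g : L), c₁ (cg z g) + c₂ (cg z g) = c₁ g + c₂ g := fun z g => by
      have e : ∀ x : L, c₁ x + c₂ x = (Θ γ) x := fun x => by rw [hsum]; rfl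
      rw [e, e, ← hγeq, ← hres, ← hres, toGL_cg]
      exact IsCharacter.isClassFunction (isCharacter_irr X) _ z
    have hconj : ∀ (χ : IrrCharacter L) (z : G2), IsIrrCharacter L (fun g => (χ : L → ℂ) (cg z g)) := fun χ z =>
      IsIrrCharacter.comp χ.2 (cg z).toMonoidHom (cg z).surjective
    have hback : ∀ g : L, cg y (cg y⁻¹ g) = g := fun g => by
      refine CfsgLib.Linear.Card.toGL_injective ?_
      rw [toGL_cg, toGL_cg]
      group
    rcases pair_mem (a := ⟨_, hconj ψ y⟩) (b := ⟨_, hconj ψ y'⟩) (c := a) (d := b) htot with e | e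
    · rcases pair_mem (a := ⟨_, hconj a y⁻¹⟩) (b := ⟨_, hconj b y⁻¹⟩) (c := a) (d := b) (hinv y⁻¹) with e' | e'
      · left
        refine Subtype.ext (funext fun g => ?_)
        have h1 := congrFun (congrArg Subtype.val e) (cg y⁻¹ g)
        dsimp only at h1
        rw [hback] at h1
        exact h1.trans (congrFun (congrArg Subtype.val e') g)
      · right
        refine Subtype.ext (funext fun g => ?_)
        have h1 := congrFun (congrArg Subtype.val e) (cg y⁻¹ g)
        dsimp only at h1
        rw [hback] at h1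
        exact h1.trans (congrFun (congrArg Subtype.val e') g)
    · rcases pair_mem (a := ⟨_, hconj b y⁻¹⟩) (b := ⟨_, hconj a y⁻¹⟩) (c := a) (d := b)
          (fun g => by rw [← hinv y⁻¹ g]; exact add_comm _ _) with e' | e'
      · left
        refine Subtype.ext (funext fun g => ?_)
        have h1 := congrFun (congrArg Subtype.val e) (cg y⁻¹ g)
        dsimp only at h1
        rw [hback] at h1
        exact h1.trans (congrFun (congrArg Subtype.val e') g)
      · right
        refine Subtype.ext (funext fun g => ?_)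
        have h1 := congrFun (congrArg Subtype.val e) (cg y⁻¹ g)
        dsimp only at h1
        rw [hback] at h1
        exact h1.trans (congrFun (congrArg Subtype.val e') g)
  have hab : a ≠ b := fun e => hne (congrArg Subtype.val e)
  rw [Nat.card_eq_fintype_card, Fintype.card_subtype]
  refine Eq.trans (congrArg Finset.card ?_) (Finset.card_pair hab)
  ext ψ
  simp only [Finset.mem_filter, Finset.mem_univ, true_and, Finset.mem_insert, Finset.mem_singleton]
  exact ⟨hmem ψ, fun h => h.elim (fun e => e ▸ hdeg a _ hd₁) (fun e => e ▸ hdeg b _ hd₂)⟩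

/-- The number of characters of degree `q + 1`. -/
theorem card_succ (hodd : Odd (Fintype.card F)) (hq : 5 ≤ Fintype.card F) :
    Nat.card {ψ : IrrCharacter L // charDegree (ψ : L → ℂ) = Fintype.card F + 1} = (Fintype.card F - 3) / 2 := by
  classical
  haveI : Finite (IrrCharacter L) := finite_irr L
  letI := Fintype.ofFinite (MulChar F ℂ)
  set M := Finset.univ.filter fun γ : MulChar F ℂ => γ ^ 2 ≠ 1 with hM
  set R := Finset.univ.filter fun ψ : IrrCharacter L => charDegree (ψ : L → ℂ) = Fintype.card F + 1 with hR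
  let f : MulChar F ℂ → IrrCharacter L := fun γ =>
    if h : γ ^ 2 ≠ 1 then ⟨_, principal_irr h⟩ else ⟨fun _ => 1, isIrrCharacter_one L⟩
  have hf : ∀ γ ∈ M, (f γ : L → ℂ) = Θ γ := fun γ hγ => by
    simp only [f, dif_pos (Finset.mem_filter.1 hγ).2]
  have hmaps : ∀ γ ∈ M, f γ ∈ R := fun γ hγ => by
    have h1 := irr_apply_one (f γ)
    rw [hf γ hγ, principal_deg] at h1
    refine Finset.mem_filter.2 ⟨Finset.mem_univ _, ?_⟩
    have h2 : ((Fintype.card F + 1 : ℕ) : ℂ) = (charDegree (f γ : L → ℂ) : ℂ) := by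
      rw [hf γ hγ] at *
      rw [Nat.cast_add, Nat.cast_one]; exact h1
    exact_mod_cast h2.symm
  have hfib : ∀ ψ ∈ R, (M.filter fun γ => f γ = ψ).card = 2 := by
    intro ψ hψ
    obtain ⟨γ₀, h0, e0⟩ := deg_succ hq ψ (Finset.mem_filter.1 hψ).2
    have hne : γ₀ ≠ γ₀⁻¹ := fun e => h0 (by rw [pow_two]; exact mul_eq_one_iff_eq_inv.2 e)
    refine Eq.trans (congrArg Finset.card ?_) (Finset.card_pair hne)
    ext γ
    simp only [Finset.mem_filter, Finset.mem_insert, Finset.mem_singleton]
    constructor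
    · rintro ⟨hγ, he⟩
      have h1 := classInner_irr (f γ) ψ
      rw [if_pos he, hf γ hγ, e0, inner_eq] at h1
      by_contra hc
      push Not at hc
      rw [if_neg hc.1, if_neg hc.2] at h1
      norm_num at h1
    · intro hc
      have hγ : γ ∈ M := by
        refine Finset.mem_filter.2 ⟨Finset.mem_univ _, ?_⟩
        rcases hc with rfl | rfl
        · exact h0
        · rw [inv_pow, ne_eq, inv_eq_one]; exact h0
      refine ⟨hγ, ?_⟩
      by_contra hne'
      have h1 := classInner_irr (f γ) ψ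
      rw [if_neg hne', hf γ hγ, e0, inner_eq] at h1
      rcases hc with rfl | rfl
      · rw [if_pos rfl] at h1; split_ifs at h1 <;> norm_num at h1
      · simp [hne.symm] at h1
  have hcard : M.card = 2 * R.card := by
    rw [Finset.card_eq_sum_card_fiberwise hmaps, Finset.sum_congr rfl hfib, Finset.sum_const, smul_eq_mul, mul_comm]
  have hMc : M.card + 2 = Fintype.card F - 1 := by
    obtain ⟨α, hα, hα1⟩ := exists_quad hodd
    have hpair : Finset.univ.filter (fun γ : MulChar F ℂ => ¬ γ ^ 2 ≠ 1) = {1, α} := by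
      ext γ
      simp only [Finset.mem_filter, Finset.mem_univ, true_and, not_not, Finset.mem_insert, Finset.mem_singleton]
      refine ⟨fun h => or_iff_not_imp_left.2 fun h1 => quad_unique h h1 hα hα1, ?_⟩
      rintro (rfl | rfl)
      · exact one_pow 2
      · exact hα
    have htot := Finset.card_filter_add_card_filter_not (s := (Finset.univ : Finset (MulChar F ℂ))) (fun γ => γ ^ 2 ≠ 1)
    rw [hpair, Finset.card_pair hα1.symm, Finset.card_univ, ← Nat.card_eq_fintype_card (α := MulChar F ℂ),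
      MulChar.card_eq_card_units_of_hasEnoughRootsOfUnity, Nat.card_units, Nat.card_eq_fintype_card] at htot
    exact htot
  rw [Nat.card_eq_fintype_card, Fintype.card_subtype, ← hR]
  omega

/-- All the degree counts in odd characteristic. -/
theorem odd_counts (hodd : Odd (Fintype.card F)) (hq : 5 ≤ Fintype.card F) :
    Nat.card {ψ : IrrCharacter L // charDegree (ψ : L → ℂ) = Fintype.card F - 1} = (Fintype.card F - 1) / 2 ∧
    Nat.card {ψ : IrrCharacter L // charDegree (ψ : L → ℂ) = (Fintype.card F - 1) / 2} = 2 := by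
  classical
  haveI : Finite (IrrCharacter L) := finite_irr L
  obtain ⟨m, hm⟩ := hodd
  have hR := card_succ ⟨m, hm⟩ hq
  have hA := deg_half ⟨m, hm⟩ hq
  obtain ⟨St, hSt, -⟩ := exists_deg_card (F := F)
  let one : IrrCharacter L := ⟨fun _ => 1, isIrrCharacter_one L⟩
  have hone : charDegree (one : L → ℂ) = 1 := by simp [one, charDegree]
  rw [Nat.card_eq_fintype_card, Fintype.card_subtype] at hR hA
  rw [Nat.card_eq_fintype_card, Nat.card_eq_fintype_card, Fintype.card_subtype, Fintype.card_subtype]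
  rw [hm] at hR hA hSt ⊢
  rw [show 2 * m + 1 + 1 = 2 * (m + 1) by ring, Nat.mul_div_cancel_left _ two_pos] at hA
  rw [show 2 * m + 1 + 1 = 2 * m + 2 from rfl] at hR
  rw [Nat.add_sub_cancel, Nat.mul_div_cancel_left _ two_pos]
  have hdeg : ∀ ψ : IrrCharacter L, charDegree (ψ : L → ℂ) ∈ ({1, 2 * m + 1, 2 * m + 2, 2 * m, m + 1, m} : Finset ℕ) := by
    intro ψ
    obtain ⟨X, Y, hY12, hd, -, -, hcases, -⟩ := over_degree ψ
    rw [hm] at hcases
    simp only [Finset.mem_insert, Finset.mem_singleton]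
    rcases hY12 with c | c <;> rw [c] at hd <;> rcases hcases with e | e | e | e <;> omega
  have h1c : (Finset.univ.filter fun ψ : IrrCharacter L => charDegree (ψ : L → ℂ) = 1).card = 1 := by
    rw [Finset.card_eq_one]
    refine ⟨one, Finset.ext fun ψ => ?_⟩
    simp only [Finset.mem_filter, Finset.mem_univ, true_and, Finset.mem_singleton]
    exact ⟨fun h => Subtype.ext (deg_one_unique (by omega) ψ h), fun h => by rw [h, hone]⟩
  have hqc : (Finset.univ.filter fun ψ : IrrCharacter L => charDegree (ψ : L → ℂ) = 2 * m + 1).card = 1 := by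
    rw [Finset.card_eq_one]
    refine ⟨St, Finset.ext fun ψ => ?_⟩
    simp only [Finset.mem_filter, Finset.mem_univ, true_and, Finset.mem_singleton]
    exact ⟨fun h => deg_card_unique ψ St (h.trans hm.symm) (hSt.trans hm.symm), fun h => by rw [h, hSt]⟩
  have hcl : Fintype.card (IrrCharacter L) = 2 * m + 5 := by
    have h2 : (2 : F) ≠ 0 := Ring.two_ne_zero (fun h => by
      have := FiniteField.even_card_iff_char_two.1 h
      omega)
    have h := CfsgLib.SL2Torus.class_number (F := F)
    rw [if_neg h2, ← card_irr, Nat.card_eq_fintype_card, hm] at h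
    exact h
  have hcount := Finset.card_eq_sum_card_fiberwise (s := (Finset.univ : Finset (IrrCharacter L)))
    (f := fun ψ : IrrCharacter L => charDegree (ψ : L → ℂ)) (fun (ψ : IrrCharacter L) _ => hdeg ψ)
  have hsum := sum_deg_sq (G := L)
  rw [card_SL2, hm, ← Finset.sum_fiberwise_of_maps_to (g := fun ψ : IrrCharacter L => charDegree (ψ : L → ℂ))
    (t := ({1, 2 * m + 1, 2 * m + 2, 2 * m, m + 1, m} : Finset ℕ)) (fun ψ _ => hdeg ψ)] at hsum
  rw [Finset.sum_congr rfl (g := fun d => (Finset.univ.filter fun ψ : IrrCharacter L => charDegree (ψ : L → ℂ) = d).card * d ^ 2)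
    (fun d _ => by
      rw [Finset.sum_congr rfl (g := fun _ => d ^ 2) (fun ψ h => by rw [(Finset.mem_filter.1 h).2]),
        Finset.sum_const, smul_eq_mul])] at hsum
  rw [Finset.card_univ, hcl] at hcount
  have n1 : 1 ∉ ({2 * m + 1, 2 * m + 2, 2 * m, m + 1, m} : Finset ℕ) := by
    simp only [Finset.mem_insert, Finset.mem_singleton]; omega
  have n2 : 2 * m + 1 ∉ ({2 * m + 2, 2 * m, m + 1, m} : Finset ℕ) := by
    simp only [Finset.mem_insert, Finset.mem_singleton]; omega
  have n3 : 2 * m + 2 ∉ ({2 * m, m + 1, m} : Finset ℕ) := by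
    simp only [Finset.mem_insert, Finset.mem_singleton]; omega
  have n4 : 2 * m ∉ ({m + 1, m} : Finset ℕ) := by
    simp only [Finset.mem_insert, Finset.mem_singleton]; omega
  have n5 : m + 1 ∉ ({m} : Finset ℕ) := by
    simp only [Finset.mem_singleton]; omega
  rw [Finset.sum_insert n1, Finset.sum_insert n2, Finset.sum_insert n3, Finset.sum_insert n4, Finset.sum_insert n5,
    Finset.sum_singleton, h1c, hqc, hR, hA] at hcount hsum
  set C := (Finset.univ.filter fun ψ : IrrCharacter L => charDegree (ψ : L → ℂ) = 2 * m).card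
  set b := (Finset.univ.filter fun ψ : IrrCharacter L => charDegree (ψ : L → ℂ) = m).card
  have hr : ((2 * m + 1 - 3) / 2 : ℕ) = m - 1 := by omega
  rw [hr] at hcount hsum
  have hA1 : 1 ≤ (2 * m + 1) ^ 2 := Nat.one_le_pow _ _ (by omega)
  have hB1 : 1 ≤ m := by omega
  zify [hA1, hB1] at hcount hsum
  have key : (3 * (m : ℤ) ^ 2) * ((C : ℤ) - m) = 0 := by
    linear_combination hsum + (m : ℤ) ^ 2 * hcount
  have hm0 : (3 * (m : ℤ) ^ 2) ≠ 0 := by positivity
  have hC : C = m := by exact_mod_cast sub_eq_zero.1 ((mul_eq_zero.1 key).resolve_left hm0)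
  rw [hC] at hcount
  refine ⟨hC, ?_⟩
  omega

end CfsgLib.SL2Borel
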