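import Mathlib
import Cfsg.Agent.Lib.SL2Borel.OddCounts
import Cfsg.Agent.Lib.SL2Borel.DegreeSet
import Cfsg.Agent.Lib.Chars.TIAbelian

/-!
# Degrees of `PSL₂` in odd characteristic
-/

set_option autoImplicit false

namespace CfsgLib.SL2Borel

open Matrix CfsgLib.Chars Cfsg
open scoped ComplexConjugate

universe u

variable {F : Type u} [Field F] [Fintype F] [DecidableEq F]

local notation "L" => Matrix.SpecialLinearGroup (Fin 2) F
local notation "M2" => Matrix (Fin 2) (Fin 2) F
local notation "PL" => Matrix.ProjectiveSpecialLinearGroup (Fin 2) F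

/-- The element `-1`. -/
def negOne : L := ⟨-1, by simp [Matrix.det_neg]⟩

omit [Fintype F] [DecidableEq F] in
theorem negOne_mem : (negOne : L) ∈ Subgroup.center L := by
  rw [Subgroup.mem_center_iff]
  intro y
  refine Subtype.ext ?_
  rw [Matrix.SpecialLinearGroup.coe_mul, Matrix.SpecialLinearGroup.coe_mul]
  show _ * (-1 : M2) = (-1 : M2) * _
  rw [mul_neg, mul_one, neg_mul, one_mul]

omit [Fintype F] [DecidableEq F] in
theorem negOne_mul : (negOne : L) * negOne = 1 := by
  refine Subtype.ext ?_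
  rw [Matrix.SpecialLinearGroup.coe_mul]
  show (-1 : M2) * (-1) = 1
  rw [neg_mul_neg, one_mul]

theorem at_negOne (χ : IrrCharacter L) :
    (χ : L → ℂ) negOne = (charDegree (χ : L → ℂ) : ℂ) ∨ (χ : L → ℂ) negOne = -(charDegree (χ : L → ℂ) : ℂ) := by
  have h := CfsgLib.Chars.TIAbelian.central_value χ negOne_mem negOne
  rw [negOne_mul, irr_apply_one] at h
  have hd : (charDegree (χ : L → ℂ) : ℂ) ≠ 0 := Nat.cast_ne_zero.2 (charDegree_pos χ).ne'
  rw [div_mul_eq_mul_div, eq_div_iff hd] at h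
  exact mul_self_eq_mul_self_iff.1 h.symm

theorem principal_negOne (γ : MulChar F ℂ) :
    indFun (B F) (fun b => γ (((b : L) : M2) 0 0)) negOne = γ (-1) * ((Fintype.card F : ℂ) + 1) := by
  rw [indFun_eq]
  simp [negOne]
  ring

theorem exists_deflate_negOne (χ : IrrCharacter L) (h : (χ : L → ℂ) negOne = (charDegree (χ : L → ℂ) : ℂ)) :
    charDegree (χ : L → ℂ) ∈ charDegrees PL := by
  obtain ⟨φ, hφ⟩ := exists_deflate (Subgroup.center L) χ (by
    intro z hz
    obtain ⟨r, hr, hrz⟩ := Matrix.SpecialLinearGroup.mem_center_iff.1 hz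
    have hr2 : r * r = 1 := by rw [← pow_two]; simpa using hr
    rcases mul_self_eq_one_iff.1 hr2 with e | e
    · have : z = 1 := Subtype.ext (by rw [← hrz, e, map_one, Matrix.SpecialLinearGroup.coe_one])
      rw [this]
    · have : z = negOne := Subtype.ext (by
        rw [← hrz, e, map_neg, map_one]
        rfl)
      rw [this, h, irr_apply_one])
  refine ⟨φ, ?_⟩
  rw [hφ]
  rfl

/-- The degree `q + 1` occurs for `PSL₂`. -/
theorem succ_mem (hodd : Odd (Fintype.card F)) (hq : 7 ≤ Fintype.card F) :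
    Fintype.card F + 1 ∈ charDegrees PL := by
  classical
  letI := Fintype.ofFinite (MulChar F ℂ)
  haveI : IsCyclic (MulChar F ℂ) := by
    obtain ⟨e⟩ := MulChar.mulEquiv_units F ℂ
    exact isCyclic_of_surjective e.symm.toMonoidHom e.symm.surjective
  obtain ⟨μ, hμ⟩ := IsCyclic.exists_generator (α := MulChar F ℂ)
  have ho : orderOf μ = Fintype.card F - 1 := by
    rw [orderOf_eq_card_of_forall_mem_zpowers hμ, MulChar.card_eq_card_units_of_hasEnoughRootsOfUnity,
      Nat.card_units, Nat.card_eq_fintype_card]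
  have h4 : (μ ^ 2) ^ 2 ≠ 1 := by
    rw [← pow_mul]
    intro h
    have := Nat.le_of_dvd (by norm_num) (orderOf_dvd_of_pow_eq_one h)
    omega
  let ψ : IrrCharacter L := ⟨_, principal_irr h4⟩
  have hd : charDegree (ψ : L → ℂ) = Fintype.card F + 1 := by
    have h1 := irr_apply_one ψ
    rw [show (ψ : L → ℂ) 1 = (Fintype.card F : ℂ) + 1 from principal_deg (μ ^ 2)] at h1
    exact_mod_cast h1.symm
  rw [← hd]
  refine exists_deflate_negOne ψ ?_
  show indFun (B F) (fun b => (μ ^ 2) (((b : L) : M2) 0 0)) negOne = _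
  rw [principal_negOne, hd, pow_two μ, MulChar.mul_apply, ← map_mul, neg_mul_neg, one_mul, map_one, one_mul,
    Nat.cast_add, Nat.cast_one]

theorem card_even_chars (hodd : Odd (Fintype.card F)) [Fintype (MulChar F ℂ)] [DecidableEq (MulChar F ℂ)] :
    2 * (Finset.univ.filter fun γ : MulChar F ℂ => γ (-1) = 1).card + 1 = Fintype.card F := by
  classical
  have hval : ∀ γ : MulChar F ℂ, γ (-1) = 1 ∨ γ (-1) = -1 := fun γ => by
    refine mul_self_eq_one_iff.1 ?_
    rw [← map_mul, neg_mul_neg, one_mul, map_one]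
  have hne1 : (-1 : F) ≠ 1 := by
    intro h
    obtain ⟨k, hk⟩ := hodd
    have h2 : (2 : F) = 0 := by linear_combination -h
    have := FiniteField.even_card_iff_char_two.1 (by
      by_contra hc
      exact Ring.two_ne_zero hc h2)
    omega
  obtain ⟨η, hη⟩ := MulChar.exists_apply_ne_one_of_hasEnoughRootsOfUnity (M := F) ℂ hne1
  have hη1 : η (-1) = -1 := (hval η).resolve_left hη
  have hbij : (Finset.univ.filter fun γ : MulChar F ℂ => γ (-1) = 1).card =
      (Finset.univ.filter fun γ : MulChar F ℂ => ¬ γ (-1) = 1).card := by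
    refine Finset.card_bij' (fun γ _ => γ * η) (fun γ _ => γ * η⁻¹) ?_ ?_ ?_ ?_
    · intro γ hγ
      simp only [Finset.mem_filter, Finset.mem_univ, true_and] at hγ ⊢
      rw [MulChar.mul_apply, hγ, hη1]; norm_num
    · intro γ hγ
      simp only [Finset.mem_filter, Finset.mem_univ, true_and] at hγ ⊢
      rw [MulChar.mul_apply, (hval γ).resolve_left hγ, MulChar.inv_apply', inv_neg, inv_one, hη1]; norm_num
    · intros; simp
    · intros; simp
  have htot := Finset.card_filter_add_card_filter_not (s := (Finset.univ : Finset (MulChar F ℂ))) (fun γ => γ (-1) = 1)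
  rw [← hbij, Finset.card_univ, ← Nat.card_eq_fintype_card (α := MulChar F ℂ),
    MulChar.card_eq_card_units_of_hasEnoughRootsOfUnity, Nat.card_units, Nat.card_eq_fintype_card] at htot
  have := Fintype.card_pos (α := F)
  omega

/-- The degree `q - 1` occurs for `PSL₂`. -/
theorem pred_mem (hodd : Odd (Fintype.card F)) (hq : 7 ≤ Fintype.card F) :
    Fintype.card F - 1 ∈ charDegrees PL := by
  classical
  haveI : Finite (IrrCharacter L) := finite_irr L
  letI := Fintype.ofFinite (MulChar F ℂ)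
  by_contra hcon
  set d := fun χ : IrrCharacter L => charDegree (χ : L → ℂ) with hdd
  set P := Finset.univ.filter fun χ : IrrCharacter L => (χ : L → ℂ) negOne = (d χ : ℂ) with hP
  have hhalf : 2 * ∑ χ ∈ P, d χ ^ 2 = Fintype.card F * (Fintype.card F ^ 2 - 1) := by
    have h1 := sum_deg_sq (G := L)
    rw [card_SL2] at h1
    have hne : (negOne : L) ≠ 1 := fun h => by
      have h00 := congrFun (congrFun (congrArg Subtype.val h) 0) 0
      simp [negOne] at h00
      obtain ⟨k, hk⟩ := hodd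
      have := FiniteField.even_card_iff_char_two.1 (by
        by_contra hc
        exact Ring.neg_one_ne_one_of_char_ne_two hc h00)
      omega
    have h2 := sum_deg_mul (G := L) negOne
    rw [if_neg hne] at h2
    have h3 : ∑ χ : IrrCharacter L, ((if (χ : L → ℂ) negOne = (d χ : ℂ) then 2 * d χ ^ 2 else 0 : ℕ) : ℂ) =
        ∑ χ : IrrCharacter L, ((d χ : ℂ) ^ 2 + (d χ : ℂ) * (χ : L → ℂ) negOne) := by
      refine Finset.sum_congr rfl fun χ _ => ?_
      split_ifs with hc
      · rw [hc]; push_cast; ring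
      · rw [(at_negOne χ).resolve_left hc]; push_cast; ring
    have h2' : ∑ χ : IrrCharacter L, (d χ : ℂ) * (χ : L → ℂ) negOne = 0 := by
      refine Eq.trans (Finset.sum_congr rfl fun χ _ => ?_) h2
      rw [irr_apply_one]
    rw [Finset.sum_add_distrib, h2', add_zero] at h3
    have h4 : ∑ χ : IrrCharacter L, (if (χ : L → ℂ) negOne = (d χ : ℂ) then 2 * d χ ^ 2 else 0) =
        ∑ χ : IrrCharacter L, d χ ^ 2 := by
      have h5 : ((∑ χ : IrrCharacter L, (if (χ : L → ℂ) negOne = (d χ : ℂ) then 2 * d χ ^ 2 else 0) : ℕ) : ℂ) =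
          ((∑ χ : IrrCharacter L, d χ ^ 2 : ℕ) : ℂ) := by push_cast at h3 ⊢; exact h3
      exact_mod_cast h5
    rw [← Finset.sum_filter, ← hP, ← Finset.mul_sum] at h4
    rw [h4]; exact h1
  obtain ⟨m, hm⟩ := hodd
  have hA := deg_half ⟨m, hm⟩ (by omega)
  have hB := (odd_counts ⟨m, hm⟩ (by omega)).2
  rw [Nat.card_eq_fintype_card, Fintype.card_subtype] at hA hB
  -- the principal series with trivial central character
  set R := P.filter fun χ => d χ = Fintype.card F + 1 with hR
  have hRc : 4 * R.card + 3 ≤ Fintype.card F := by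
    have hch : ∀ ψ ∈ R, ∃ γ : MulChar F ℂ, γ ^ 2 ≠ 1 ∧ γ (-1) = 1 ∧
        (ψ : L → ℂ) = indFun (B F) (fun b => γ (((b : L) : M2) 0 0)) := by
      intro ψ hψ
      obtain ⟨hψP, hψd⟩ := Finset.mem_filter.1 hψ
      obtain ⟨γ, hγ, e⟩ := deg_succ (by omega) ψ hψd
      refine ⟨γ, hγ, ?_, e⟩
      have h1 := (Finset.mem_filter.1 hψP).2
      rw [e, principal_negOne, hψd, Nat.cast_add, Nat.cast_one] at h1
      have hne : (Fintype.card F : ℂ) + 1 ≠ 0 := by exact_mod_cast (Nat.succ_ne_zero (Fintype.card F))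
      exact mul_right_cancel₀ hne (h1.trans (one_mul _).symm)
    choose g hg2 hg1 hge using hch
    set S := (Finset.univ.filter fun γ : MulChar F ℂ => γ (-1) = 1).erase 1 with hS
    have hle : 2 * R.card ≤ S.card := by
      let A := R.attach.image fun ψ => g ψ.1 ψ.2
      let A' := R.attach.image fun ψ => (g ψ.1 ψ.2)⁻¹
      have hinj : ∀ ψ φ : {ψ // ψ ∈ R}, g ψ.1 ψ.2 = g φ.1 φ.2 → ψ = φ := fun ψ φ h =>
        Subtype.ext (Subtype.ext (by rw [hge ψ.1 ψ.2, hge φ.1 φ.2, h]))
      have hA1 : A.card = R.card := by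
        rw [Finset.card_image_of_injective _ (fun ψ φ h => hinj ψ φ h), Finset.card_attach]
      have hA2 : A'.card = R.card := by
        rw [Finset.card_image_of_injective _ (fun ψ φ h => hinj ψ φ (inv_injective h)), Finset.card_attach]
      have hdis : Disjoint A A' := Finset.disjoint_left.2 fun γ h h' => by
        obtain ⟨ψ, -, rfl⟩ := Finset.mem_image.1 h
        obtain ⟨φ, -, he⟩ := Finset.mem_image.1 h'
        have h1 := classInner_irr ψ.1 φ.1
        rw [hge φ.1 φ.2, hge ψ.1 ψ.2, inner_eq, if_pos he.symm] at h1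
        by_cases hc : ψ.1 = φ.1
        · obtain rfl := Subtype.ext hc
          exact hg2 ψ.1 ψ.2 (by rw [pow_two]; exact mul_eq_one_iff_eq_inv.2 he.symm)
        · rw [if_neg hc] at h1
          split_ifs at h1 <;> norm_num at h1
      have hsub : A ∪ A' ⊆ S := by
        intro γ h
        rcases Finset.mem_union.1 h with h | h
        · obtain ⟨ψ, -, rfl⟩ := Finset.mem_image.1 h
          refine Finset.mem_erase.2 ⟨fun e => hg2 ψ.1 ψ.2 (by rw [e, one_pow]),
            Finset.mem_filter.2 ⟨Finset.mem_univ _, hg1 ψ.1 ψ.2⟩⟩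
        · obtain ⟨ψ, -, rfl⟩ := Finset.mem_image.1 h
          refine Finset.mem_erase.2 ⟨fun e => hg2 ψ.1 ψ.2 (by rw [inv_eq_one.1 e, one_pow]),
            Finset.mem_filter.2 ⟨Finset.mem_univ _, ?_⟩⟩
          rw [MulChar.inv_apply', inv_neg, inv_one, hg1 ψ.1 ψ.2]
      have := Finset.card_le_card hsub
      rw [Finset.card_union_of_disjoint hdis, hA1, hA2] at this
      omega
    have h1 : (1 : MulChar F ℂ) ∈ Finset.univ.filter fun γ : MulChar F ℂ => γ (-1) = 1 := by
      simp [MulChar.one_apply]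
    rw [hS, Finset.card_erase_of_mem h1] at hle
    have := card_even_chars (F := F) ⟨m, hm⟩
    have := Finset.card_pos.2 ⟨_, h1⟩
    omega
  have hnoC : ∀ χ ∈ P, d χ ≠ Fintype.card F - 1 := fun χ hχ e =>
    hcon (e ▸ exists_deflate_negOne χ (Finset.mem_filter.1 hχ).2)
  -- bound the sum of squares with trivial central character
  let T : ℕ → Finset (IrrCharacter L) := fun k => Finset.univ.filter fun χ => charDegree (χ : L → ℂ) = k
  have hbound : ∑ χ ∈ P, d χ ^ 2 ≤ 1 + Fintype.card F ^ 2 + R.card * (Fintype.card F + 1) ^ 2 +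
      2 * ((Fintype.card F + 1) / 2) ^ 2 + 2 * ((Fintype.card F - 1) / 2) ^ 2 := by
    have hcov : P ⊆ T 1 ∪ T (Fintype.card F) ∪ R ∪ T ((Fintype.card F + 1) / 2) ∪ T ((Fintype.card F - 1) / 2) := by
      intro χ hχ
      obtain ⟨X, Y, hY12, hd, -, -, hcases, -⟩ := over_degree χ
      have hn := hnoC χ hχ
      simp only [T, R, Finset.mem_union, Finset.mem_filter, Finset.mem_univ, true_and, hχ]
      simp only [hdd] at hn ⊢
      rcases hY12 with c | c <;> rw [c] at hd <;> rcases hcases with e | e | e | e <;> omega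
    have hsle : ∀ s t : Finset (IrrCharacter L),
        ∑ χ ∈ s ∪ t, d χ ^ 2 ≤ ∑ χ ∈ s, d χ ^ 2 + ∑ χ ∈ t, d χ ^ 2 := fun s t => by
      rw [← Finset.sum_union_inter]; exact Nat.le_add_right _ _
    have hT : ∀ k, ∑ χ ∈ T k, d χ ^ 2 = (T k).card * k ^ 2 := fun k => by
      rw [Finset.sum_congr rfl (g := fun _ => k ^ 2) (fun χ h => by simp only [hdd]; rw [(Finset.mem_filter.1 h).2]),
        Finset.sum_const, smul_eq_mul]
    have hRs : ∑ χ ∈ R, d χ ^ 2 = R.card * (Fintype.card F + 1) ^ 2 := by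
      rw [Finset.sum_congr rfl (g := fun _ => (Fintype.card F + 1) ^ 2) (fun χ h => by rw [(Finset.mem_filter.1 h).2]),
        Finset.sum_const, smul_eq_mul]
    have hT1 : (T 1).card ≤ 1 := Finset.card_le_one.2 fun a ha b hb => Subtype.ext (by
      rw [deg_one_unique (by omega) a (Finset.mem_filter.1 ha).2, deg_one_unique (by omega) b (Finset.mem_filter.1 hb).2])
    have hTq : (T (Fintype.card F)).card ≤ 1 := Finset.card_le_one.2 fun a ha b hb =>
      deg_card_unique a b (Finset.mem_filter.1 ha).2 (Finset.mem_filter.1 hb).2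
    refine (Finset.sum_le_sum_of_subset hcov).trans ?_
    refine (hsle _ _).trans (Nat.add_le_add ?_ (by rw [hT]; exact Nat.mul_le_mul_right _ hB.le))
    refine (hsle _ _).trans (Nat.add_le_add ?_ (by rw [hT]; exact Nat.mul_le_mul_right _ hA.le))
    refine (hsle _ _).trans (Nat.add_le_add ?_ hRs.le)
    refine (hsle _ _).trans (Nat.add_le_add ?_ ?_)
    · rw [hT, one_pow, mul_one]; exact hT1
    · rw [hT]; exact (Nat.mul_le_mul_right _ hTq).trans (one_mul _).le
  rw [hm] at hhalf hbound hRc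
  rw [show (2 * m + 1 + 1) / 2 = m + 1 by omega, show (2 * m + 1 - 1) / 2 = m by omega] at hbound
  have hR2 : 2 * R.card + 1 ≤ m := by omega
  have h3 : 3 ≤ m := by omega
  have h1 : 1 ≤ (2 * m + 1) ^ 2 := Nat.one_le_pow _ _ (by omega)
  zify [h1] at hhalf hbound hR2
  have hmul := mul_le_mul_of_nonneg_right hR2 (by positivity : (0 : ℤ) ≤ ((m : ℤ) + 1) ^ 2)
  nlinarith [mul_le_mul_of_nonneg_right (show (3 : ℤ) ≤ m by exact_mod_cast h3) (sq_nonneg (m : ℤ))]

theorem card_mem : Fintype.card F ∈ charDegrees PL := by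
  obtain ⟨St, hSt, hval⟩ := exists_deg_card (F := F)
  rw [← hSt]
  refine exists_deflate_negOne St ?_
  rw [hval, CfsgLib.GL2Borel.indFun_eq, hSt, toGL_coe]
  have e : ((negOne : L) : M2) = -1 := rfl
  simp [e, MulChar.one_apply]

theorem degrees_subset (hodd : Odd (Fintype.card F)) {d : ℕ} (hd : d ∈ charDegrees L) :
    d = 1 ∨ d = Fintype.card F ∨ d = Fintype.card F + 1 ∨ d = Fintype.card F - 1 ∨
      d = (Fintype.card F + 1) / 2 ∨ d = (Fintype.card F - 1) / 2 := by
  obtain ⟨χ, rfl⟩ := hd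
  obtain ⟨X, Y, hY12, hd, -, -, hcases, -⟩ := over_degree χ
  obtain ⟨m, hm⟩ := hodd
  rcases hY12 with c | c <;> rw [c] at hd <;> rcases hcases with f | f | f | f <;> omega

theorem degrees_PL_subset {d : ℕ} (hd : d ∈ charDegrees PL) : d ∈ charDegrees L := by
  obtain ⟨φ, rfl⟩ := hd
  exact ⟨⟨_, CfsgLib.Chars.IsIrrCharacter.comp φ.2 (QuotientGroup.mk' (Subgroup.center L))
    (QuotientGroup.mk'_surjective _)⟩, by simp [charDegree]⟩

end CfsgLib.SL2Borel
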